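import Cfsg.Agent.H141.Ux.Defs

/-!
# UX (S5716), UF1: the lift of `Sp(V)` to `O(V ⊥ ⟨1⟩)`, characteristic two (helper994)

`F` finite with `2 = 0`, `Q₀` a quadratic form on `V` with nondegenerate polar form `B`.

* `Qt Q₀ (v, c) = Q₀ v + c ^ 2` on `V × F`; the radical of the polar form is `0 × F`;
* `SpQ Q₀` : the isometries of `B`; `lft h2 : SpQ Q₀ →* GL(V × F)`, `lft h (v, c) = (h v, c + sg h v)`,
  `sg h v = √(Q₀ v + Q₀ (h v))`; the image is `O (Qt Q₀)` (`lft_mem`, `exists_lft`);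
* `Lf h2 H` : the lift of a subgroup `H` of `GL(V)`; `mem_Lf`;
* `siegel_eq` : the Siegel transformation of `(s, a)`, `(t, b)` is the lift of `v ↦ v + B(s, v) t + B(t, v) s + Qt(t, b) B(s, v) s`;
  `siegel_sr` : of `sr Φ s t` if `(t, b)` is singular; `has_sr`;
* `exists_form` : every symplectic form is a polar form (characteristic two);
* `cf Q₀ v` : the unique `c` with `Qt (v, c) = 0`; `exists_section` : a quadratic form `q` on `W` with polar form `B` is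
  `q w = Qt (w, l w)` with `l` linear.
-/

set_option autoImplicit false
set_option linter.unusedSectionVars false

namespace Cfsg.Agent.H994.Ux.Lift

open Module QuadraticMap Cfsg.Agent.LieClassical.OrthCore Cfsg.Agent.H847.Bs

/-! ### square roots -/

section

variable {F : Type*} [Field F]

theorem add_self (h2 : (2 : F) = 0) (a : F) : a + a = 0 := by linear_combination a * h2

theorem sq_inj (h2 : (2 : F) = 0) {a b : F} (h : a ^ 2 = b ^ 2) : a = b := by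
  have h1 : (a - b) ^ 2 = 0 := by linear_combination h + (b ^ 2 - a * b) * h2
  exact sub_eq_zero.1 (pow_eq_zero_iff (two_ne_zero) |>.1 h1)

theorem exists_rt [Finite F] (h2 : (2 : F) = 0) (x : F) : ∃ c : F, c ^ 2 = x := by
  have hinj : Function.Injective (fun c : F => c ^ 2) := fun a b h => sq_inj h2 h
  exact (Finite.injective_iff_surjective.1 hinj) x

/-- the square root -/
noncomputable def rt (x : F) : F := Classical.epsilon fun c => c ^ 2 = x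

theorem rt_sq [Finite F] (h2 : (2 : F) = 0) (x : F) : rt x ^ 2 = x := Classical.epsilon_spec (exists_rt h2 x)

theorem rt_eq [Finite F] (h2 : (2 : F) = 0) {x c : F} (h : c ^ 2 = x) : rt x = c := sq_inj h2 ((rt_sq h2 x).trans h.symm)

end

section

variable {F V : Type*} [Field F] [Finite F] [AddCommGroup V] [Module F V]

/-- the quadratic form on `V × F` -/
noncomputable def Qt (Q₀ : QuadraticForm F V) : QuadraticForm F (V × F) := Q₀.prod QuadraticMap.sq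

variable {Q₀ : QuadraticForm F V}

theorem Qt_apply (p : V × F) : Qt Q₀ p = Q₀ p.1 + p.2 ^ 2 := by
  rw [Qt, QuadraticMap.prod_apply, QuadraticMap.sq_apply, pow_two]

theorem polar_Qt (h2 : (2 : F) = 0) (p r : V × F) : polar (Qt Q₀) p r = polar Q₀ p.1 r.1 := by
  unfold polar
  rw [Qt_apply, Qt_apply, Qt_apply, Prod.fst_add, Prod.snd_add]
  linear_combination p.2 * r.2 * h2

variable (Q₀) in
/-- the isometries of the polar form -/
def SpQ : Subgroup (V ≃ₗ[F] V) where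
  carrier := {h | ∀ u v, polar Q₀ (h u) (h v) = polar Q₀ u v}
  mul_mem' := by
    intro g h hg hh u v
    show polar Q₀ (g (h u)) (g (h v)) = _
    rw [hg, hh]
  one_mem' := fun u v => rfl
  inv_mem' := by
    intro g hg u v
    have h1 := hg (g⁻¹ u) (g⁻¹ v)
    have h3 : ∀ w, g (g⁻¹ w) = w := fun w => g.apply_symm_apply w
    rw [h3, h3] at h1
    exact h1.symm

theorem mem_SpQ {h : V ≃ₗ[F] V} : h ∈ SpQ Q₀ ↔ ∀ u v, polar Q₀ (h u) (h v) = polar Q₀ u v := Iff.rfl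

variable (Q₀) in
/-- the linear form `√(Q₀ v + Q₀ (h v))` -/
noncomputable def sg (h : V ≃ₗ[F] V) (v : V) : F := rt (Q₀ v + Q₀ (h v))

theorem sg_sq (h2 : (2 : F) = 0) (h : V ≃ₗ[F] V) (v : V) : sg Q₀ h v ^ 2 = Q₀ v + Q₀ (h v) := rt_sq h2 _

theorem sg_add (h2 : (2 : F) = 0) {h : V ≃ₗ[F] V} (hh : h ∈ SpQ Q₀) (u v : V) :
    sg Q₀ h (u + v) = sg Q₀ h u + sg Q₀ h v := by
  apply sq_inj h2
  have e1 := sg_sq (Q₀ := Q₀) h2 h u
  have e2 := sg_sq (Q₀ := Q₀) h2 h v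
  rw [sg_sq h2, LinearEquiv.map_add, Q_add, Q_add, hh u v]
  linear_combination -e1 - e2 + (polar Q₀ u v - sg Q₀ h u * sg Q₀ h v) * h2

theorem sg_smul (h2 : (2 : F) = 0) (h : V ≃ₗ[F] V) (a : F) (v : V) : sg Q₀ h (a • v) = a * sg Q₀ h v := by
  apply sq_inj h2
  have e1 := sg_sq (Q₀ := Q₀) h2 h v
  rw [sg_sq h2, LinearEquiv.map_smul, QuadraticMap.map_smul, QuadraticMap.map_smul, smul_eq_mul, smul_eq_mul]
  linear_combination -(a ^ 2) * e1

theorem sg_mul (h2 : (2 : F) = 0) (g h : V ≃ₗ[F] V) (v : V) : sg Q₀ (g * h) v = sg Q₀ h v + sg Q₀ g (h v) := by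
  apply sq_inj h2
  have e1 := sg_sq (Q₀ := Q₀) h2 h v
  have e2 := sg_sq (Q₀ := Q₀) h2 g (h v)
  rw [sg_sq h2]
  show Q₀ v + Q₀ (g (h v)) = _
  linear_combination -e1 - e2 - (Q₀ (h v) + sg Q₀ h v * sg Q₀ g (h v)) * h2

theorem sg_one (h2 : (2 : F) = 0) (v : V) : sg Q₀ (1 : V ≃ₗ[F] V) v = 0 := by
  apply sq_inj h2
  rw [sg_sq h2]
  show Q₀ v + Q₀ v = _
  linear_combination (Q₀ v) * h2

/-- the lift, as a linear map -/
noncomputable def lftLin (h2 : (2 : F) = 0) (h : SpQ Q₀) : (V × F) →ₗ[F] (V × F) where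
  toFun p := ((h : V ≃ₗ[F] V) p.1, p.2 + sg Q₀ h p.1)
  map_add' p r := Prod.ext (map_add _ _ _) (by
    show p.2 + r.2 + sg Q₀ h (p.1 + r.1) = p.2 + sg Q₀ h p.1 + (r.2 + sg Q₀ h r.1)
    rw [sg_add h2 h.2]
    abel)
  map_smul' a p := Prod.ext (map_smul _ _ _) (by
    show a * p.2 + sg Q₀ h (a • p.1) = a * (p.2 + sg Q₀ h p.1)
    rw [sg_smul h2]
    ring)

theorem lftLin_comp (h2 : (2 : F) = 0) (g h : SpQ Q₀) : lftLin h2 g ∘ₗ lftLin h2 h = lftLin h2 (g * h) := by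
  refine LinearMap.ext fun p => Prod.ext rfl ?_
  show p.2 + sg Q₀ h p.1 + sg Q₀ g ((h : V ≃ₗ[F] V) p.1) = p.2 + sg Q₀ (g * h : V ≃ₗ[F] V) p.1
  rw [sg_mul h2, add_assoc]

theorem lftLin_one (h2 : (2 : F) = 0) : lftLin h2 (1 : SpQ Q₀) = LinearMap.id := by
  refine LinearMap.ext fun p => Prod.ext rfl ?_
  show p.2 + sg Q₀ (1 : V ≃ₗ[F] V) p.1 = p.2
  rw [sg_one h2, add_zero]

/-- the lift -/
noncomputable def lft (h2 : (2 : F) = 0) : SpQ Q₀ →* ((V × F) ≃ₗ[F] (V × F)) where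
  toFun h := LinearEquiv.ofLinearMap (lftLin h2 h) (lftLin h2 h⁻¹) (by rw [lftLin_comp, mul_inv_cancel, lftLin_one])
    (by rw [lftLin_comp, inv_mul_cancel, lftLin_one])
  map_one' := LinearEquiv.ext fun p => by
    show lftLin h2 1 p = p
    rw [lftLin_one]
    rfl
  map_mul' g h := LinearEquiv.ext fun p => by
    show lftLin h2 (g * h) p = lftLin h2 g (lftLin h2 h p)
    rw [← lftLin_comp]
    rfl

theorem lft_apply (h2 : (2 : F) = 0) (h : SpQ Q₀) (p : V × F) :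
    lft h2 h p = ((h : V ≃ₗ[F] V) p.1, p.2 + sg Q₀ h p.1) := rfl

theorem lft_fst (h2 : (2 : F) = 0) (h : SpQ Q₀) (p : V × F) : (lft h2 h p).1 = (h : V ≃ₗ[F] V) p.1 := rfl

theorem lft_mem (h2 : (2 : F) = 0) (h : SpQ Q₀) : lft h2 h ∈ O (Qt Q₀) := by
  intro p
  have e1 := sg_sq (Q₀ := Q₀) h2 h p.1
  rw [Qt_apply, Qt_apply, lft_apply]
  show Q₀ ((h : V ≃ₗ[F] V) p.1) + (p.2 + sg Q₀ h p.1) ^ 2 = _
  linear_combination e1 + (Q₀ ((h : V ≃ₗ[F] V) p.1) + p.2 * sg Q₀ h p.1) * h2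

theorem lft_injective (h2 : (2 : F) = 0) : Function.Injective (lft h2 : SpQ Q₀ →* _) := by
  intro g h hgh
  apply Subtype.ext
  apply LinearEquiv.ext
  intro v
  have h1 := congrArg (fun k : (V × F) ≃ₗ[F] (V × F) => (k (v, 0)).1) hgh
  exact h1

/-- isometries of `Qt` over the same isometry are equal -/
theorem lft_unique (h2 : (2 : F) = 0) (h : SpQ Q₀) {g : (V × F) ≃ₗ[F] (V × F)} (hg : g ∈ O (Qt Q₀))
    (hgh : ∀ p, (g p).1 = (h : V ≃ₗ[F] V) p.1) : g = lft h2 h := by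
  apply LinearEquiv.ext
  intro p
  refine Prod.ext (hgh p) (sq_inj h2 ?_)
  have e1 := hg p
  have e2 := lft_mem h2 h p
  rw [Qt_apply, Qt_apply, hgh] at e1
  rw [Qt_apply, Qt_apply, lft_fst] at e2
  linear_combination e1 - e2

/-- the isometries of `Qt` are lifts -/
theorem exists_lft (h2 : (2 : F) = 0) [FiniteDimensional F V] (hnd : ∀ u, (∀ v, polar Q₀ u v = 0) → u = 0)
    {g : (V × F) ≃ₗ[F] (V × F)} (hg : g ∈ O (Qt Q₀)) : ∃ h : SpQ Q₀, g = lft h2 h := by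
  have hrad : ∀ c : F, (g (0, c)).1 = 0 := by
    intro c
    apply hnd
    intro v
    obtain ⟨r, hr⟩ := g.surjective (v, 0)
    have h1 := polar_map hg (0, c) r
    rw [polar_Qt h2, polar_Qt h2, hr, polar_zero_left] at h1
    exact h1
  let f : V →ₗ[F] V := LinearMap.fst F V F ∘ₗ (g : (V × F) →ₗ[F] (V × F)) ∘ₗ LinearMap.inl F V F
  have hf : ∀ p : V × F, (g p).1 = f p.1 := by
    intro p
    have h1 : p = (p.1, 0) + (0, p.2) := by rw [Prod.mk_add_mk, add_zero, zero_add]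
    have h3 : g p = g (p.1, 0) + g (0, p.2) := by rw [← map_add, ← h1]
    rw [h3, Prod.fst_add, hrad, add_zero]
    rfl
  have hsurj : Function.Surjective f := by
    intro v
    obtain ⟨r, hr⟩ := g.surjective (v, 0)
    exact ⟨r.1, by rw [← hf, hr]⟩
  let h : V ≃ₗ[F] V := LinearEquiv.ofBijective f ⟨LinearMap.injective_iff_surjective.2 hsurj, hsurj⟩
  have hh : h ∈ SpQ Q₀ := by
    intro u v
    have h1 := polar_map hg (u, 0) (v, 0)
    rw [polar_Qt h2, polar_Qt h2, hf, hf] at h1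
    exact h1
  exact ⟨⟨h, hh⟩, lft_unique h2 ⟨h, hh⟩ hg hf⟩

/-! ### subgroups -/

/-- the lift of a subgroup -/
noncomputable def Lf (h2 : (2 : F) = 0) (Q₀ : QuadraticForm F V) (H : Subgroup (V ≃ₗ[F] V)) :
    Subgroup ((V × F) ≃ₗ[F] (V × F)) := (H.subgroupOf (SpQ Q₀)).map (lft h2)

theorem mem_Lf (h2 : (2 : F) = 0) {H : Subgroup (V ≃ₗ[F] V)} {g : (V × F) ≃ₗ[F] (V × F)} :
    g ∈ Lf h2 Q₀ H ↔ ∃ h : SpQ Q₀, (h : V ≃ₗ[F] V) ∈ H ∧ lft h2 h = g := Iff.rfl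

theorem lft_mem_Lf (h2 : (2 : F) = 0) {H : Subgroup (V ≃ₗ[F] V)} {h : SpQ Q₀} :
    lft h2 h ∈ Lf h2 Q₀ H ↔ (h : V ≃ₗ[F] V) ∈ H := by
  constructor
  · rintro ⟨k, hk, hkh⟩
    rw [← lft_injective h2 hkh]
    exact hk
  · intro hh
    exact ⟨h, hh, rfl⟩

theorem Lf_le (h2 : (2 : F) = 0) (H : Subgroup (V ≃ₗ[F] V)) : Lf h2 Q₀ H ≤ O (Qt Q₀) := by
  rintro _ ⟨h, -, rfl⟩
  exact lft_mem h2 h

/-- an isometry of `Qt` over an element of `H` is in the lift of `H` -/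
theorem mem_Lf_of (h2 : (2 : F) = 0) {H : Subgroup (V ≃ₗ[F] V)} {g : (V × F) ≃ₗ[F] (V × F)} (hg : g ∈ O (Qt Q₀))
    {h : V ≃ₗ[F] V} (hh : h ∈ H) (hgh : ∀ p, (g p).1 = h p.1) : g ∈ Lf h2 Q₀ H := by
  have h1 : h ∈ SpQ Q₀ := by
    intro u v
    have h3 := polar_map hg (u, 0) (v, 0)
    rw [polar_Qt h2, polar_Qt h2, hgh, hgh] at h3
    exact h3
  rw [lft_unique h2 ⟨h, h1⟩ hg hgh, lft_mem_Lf]
  exact hh

/-! ### Siegel transformations -/

theorem siegel_fst (h2 : (2 : F) = 0) {u w : V × F} (hu : Qt Q₀ u = 0) (hw : polar (Qt Q₀) u w = 0) (p : V × F) :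
    (siegel (Qt Q₀) u w hu hw p).1 =
      p.1 + polar Q₀ u.1 p.1 • w.1 + polar Q₀ w.1 p.1 • u.1 + (Qt Q₀ w * polar Q₀ u.1 p.1) • u.1 := by
  have hneg : ∀ (c : F) (v : V), -(c • v) = c • v := by
    intro c v
    rw [neg_eq_iff_add_eq_zero, ← add_smul, add_self h2, zero_smul]
  rw [siegel_apply, polar_Qt h2, polar_Qt h2]
  show p.1 + polar Q₀ u.1 p.1 • w.1 - polar Q₀ w.1 p.1 • u.1 - (Qt Q₀ w * polar Q₀ u.1 p.1) • u.1 = _
  rw [sub_eq_add_neg, sub_eq_add_neg, hneg, hneg]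

/-- the Siegel transformations of `V × F` are lifts -/
theorem siegel_eq (h2 : (2 : F) = 0) [FiniteDimensional F V] (hnd : ∀ u, (∀ v, polar Q₀ u v = 0) → u = 0)
    {u w : V × F} (hu : Qt Q₀ u = 0) (hw : polar (Qt Q₀) u w = 0) :
    ∃ h : SpQ Q₀, siegel (Qt Q₀) u w hu hw = lft h2 h ∧ ∀ v, (h : V ≃ₗ[F] V) v =
      v + polar Q₀ u.1 v • w.1 + polar Q₀ w.1 v • u.1 + (Qt Q₀ w * polar Q₀ u.1 v) • u.1 := by
  obtain ⟨h, hh⟩ := exists_lft h2 hnd (siegel_mem_O hu hw)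
  refine ⟨h, hh, fun v => ?_⟩
  have h1 := siegel_fst h2 hu hw (v, 0)
  rw [hh] at h1
  exact h1

end

/-! ### symplectic forms -/

section

variable {F V : Type*} [Field F] [Finite F] [AddCommGroup V] [Module F V] {Φ : Frm F V} {Q₀ : QuadraticForm F V}

theorem sp_comm (hs : IsSp Φ) (h2 : (2 : F) = 0) (u v : V) : Φ.B u v = Φ.B v u := by
  have h1 := hs.alt (u + v)
  rw [Φ.add_left, Φ.add_right, Φ.add_right, hs.alt, hs.alt] at h1
  linear_combination h1 - Φ.B v u * h2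

theorem mem_Iso_iff (hs : IsSp Φ) (hQ : ∀ u v, polar Q₀ u v = Φ.B u v) {h : V ≃ₗ[F] V} : h ∈ Φ.Iso ↔ h ∈ SpQ Q₀ := by
  constructor
  · intro hh u v
    rw [hQ, hQ]
    exact hh.1 u v
  · intro hh
    refine ⟨fun u v => ?_, fun x => by rw [hs.q, hs.q]⟩
    rw [← hQ, ← hQ]
    exact hh u v

/-- the Siegel transformation of two orthogonal singular vectors is the lift of a short root element -/
theorem siegel_sr (hs : IsSp Φ) (h2 : (2 : F) = 0) (hQ : ∀ u v, polar Q₀ u v = Φ.B u v) {u w : V × F}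
    (hu : Qt Q₀ u = 0) (hw : polar (Qt Q₀) u w = 0) (hw0 : Qt Q₀ w = 0) (p : V × F) :
    (siegel (Qt Q₀) u w hu hw p).1 = H141.Ux.sr Φ u.1 w.1 p.1 := by
  rw [siegel_fst h2, hw0, zero_mul, zero_smul, add_zero, hQ, hQ, sp_comm hs h2 u.1, sp_comm hs h2 w.1]
  rfl

/-- `Has` for the lift, from the short root elements of `H` -/
theorem has_sr (hs : IsSp Φ) (h2 : (2 : F) = 0) (hQ : ∀ u v, polar Q₀ u v = Φ.B u v) {H : Subgroup (V ≃ₗ[F] V)}
    {u w : V × F} (hu : Qt Q₀ u = 0) (hw : polar (Qt Q₀) u w = 0) (hw0 : Qt Q₀ w = 0)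
    (hh : ∃ g ∈ H, (g : V →ₗ[F] V) = H141.Ux.sr Φ u.1 w.1) : siegel (Qt Q₀) u w hu hw ∈ Lf h2 Q₀ H := by
  obtain ⟨g, hg, hgs⟩ := hh
  refine mem_Lf_of h2 (siegel_mem_O hu hw) hg fun p => ?_
  rw [siegel_sr hs h2 hQ hu hw hw0, ← hgs]
  rfl

theorem sr_of_has (hs : IsSp Φ) (h2 : (2 : F) = 0) (hQ : ∀ u v, polar Q₀ u v = Φ.B u v) {H : Subgroup (V ≃ₗ[F] V)}
    {u w : V × F} (hu : Qt Q₀ u = 0) (hw : polar (Qt Q₀) u w = 0) (hw0 : Qt Q₀ w = 0)
    (hh : siegel (Qt Q₀) u w hu hw ∈ Lf h2 Q₀ H) : ∃ g ∈ H, (g : V →ₗ[F] V) = H141.Ux.sr Φ u.1 w.1 := by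
  obtain ⟨h, hh1, hh2⟩ := (mem_Lf h2).1 hh
  refine ⟨h, hh1, LinearMap.ext fun v => ?_⟩
  have h1 := siegel_sr hs h2 hQ hu hw hw0 (v, 0)
  rw [← h1, ← hh2]
  rfl

/-- every symplectic form is a polar form (characteristic two) -/
theorem exists_form [FiniteDimensional F V] (hs : IsSp Φ) (h2 : (2 : F) = 0) :
    ∃ Q : QuadraticForm F V, ∀ u v, polar Q u v = Φ.B u v := by
  let B : V →ₗ[F] V →ₗ[F] F := LinearMap.mk₂ F Φ.B Φ.add_left (fun a x y => by rw [Φ.smul_left, smul_eq_mul])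
    Φ.add_right (fun a x y => by rw [Φ.smul_right, hs.s, smul_eq_mul])
  have hB : ∀ u v, B u v = Φ.B u v := fun u v => rfl
  let b := Module.finBasis F V
  let C : V →ₗ[F] V →ₗ[F] F := b.constr F fun i => b.constr F fun j => if i < j then B (b i) (b j) else 0
  have hC : ∀ i j, C (b i) (b j) = if i < j then B (b i) (b j) else 0 := by
    intro i j
    simp only [C, Basis.constr_basis]
  have hCB : C + C.flip = B := by
    refine b.ext fun i => b.ext fun j => ?_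
    rw [LinearMap.add_apply, LinearMap.add_apply, LinearMap.flip_apply, hC, hC]
    rcases lt_trichotomy i j with h | h | h
    · rw [if_pos h, if_neg (not_lt.2 h.le), add_zero]
    · rw [h, if_neg (lt_irrefl _), add_zero, hB, hs.alt]
    · rw [if_neg (not_lt.2 h.le), if_pos h, zero_add, hB, hB, sp_comm hs h2]
  refine ⟨LinearMap.BilinMap.toQuadraticMap C, fun x y => ?_⟩
  rw [LinearMap.BilinMap.polar_toQuadraticMap, ← hB, ← hCB]
  rfl

variable (Q₀) in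
/-- the unique `c` with `Qt (v, c) = 0` -/
noncomputable def cf (v : V) : F := rt (Q₀ v)

theorem Qt_cf (h2 : (2 : F) = 0) (v : V) : Qt Q₀ (v, cf Q₀ v) = 0 := by
  rw [Qt_apply]
  show Q₀ v + rt (Q₀ v) ^ 2 = 0
  rw [rt_sq h2, add_self h2]

theorem cf_unique (h2 : (2 : F) = 0) {v : V} {c : F} (h : Qt Q₀ (v, c) = 0) : c = cf Q₀ v := by
  apply sq_inj h2
  have h1 := Qt_cf (Q₀ := Q₀) h2 v
  rw [Qt_apply] at h h1
  linear_combination h - h1

/-- a quadratic form on `W` with the same polar form is given by a linear section -/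
theorem exists_section (h2 : (2 : F) = 0) {W : Submodule F V} {q : V → F}
    (hq : ∀ u ∈ W, ∀ w ∈ W, q (u + w) = q u + q w + polar Q₀ u w) (hq' : ∀ (a : F), ∀ w ∈ W, q (a • w) = a ^ 2 * q w) :
    ∃ l : W →ₗ[F] F, ∀ w : W, Qt Q₀ ((w : V), l w) = q w := by
  have hl : ∀ w : V, rt (q w + Q₀ w) ^ 2 = q w + Q₀ w := fun w => rt_sq h2 _
  refine ⟨{ toFun := fun w => rt (q (w : V) + Q₀ w), map_add' := fun u v => ?_, map_smul' := fun a v => ?_ }, fun w => ?_⟩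
  · apply sq_inj h2
    have e1 := hl (u : V)
    have e2 := hl (v : V)
    rw [Submodule.coe_add, rt_sq h2, hq u u.2 v v.2, Q_add]
    linear_combination -e1 - e2 + (polar Q₀ (u : V) v - rt (q (u : V) + Q₀ u) * rt (q (v : V) + Q₀ v)) * h2
  · apply sq_inj h2
    have e2 := hl (v : V)
    rw [Submodule.coe_smul, rt_sq h2, hq' a v v.2, QuadraticMap.map_smul, smul_eq_mul, RingHom.id_apply, smul_eq_mul]
    linear_combination -(a ^ 2) * e2
  · rw [Qt_apply]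
    show Q₀ (w : V) + rt (q (w : V) + Q₀ w) ^ 2 = q w
    rw [hl]
    linear_combination (Q₀ (w : V)) * h2

end

end Cfsg.Agent.H994.Ux.Lift
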